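import Cfsg.Agent.H920.FP.Theta

/-!
# The linear side of the block transvection step for S5717 (helper195)

`lin_comm`: `x` far from the scalars, `5 k ≤ s`: there is a basis `b : Basis ((Fin k ⊕ Fin k) ⊕ κ) F V` such that the
conjugates by `x` of all the maps with the matrix `1 + C` (lower left block of the first `2 k` vectors) commute with all the
maps with matrix `diag(g, 1)`.
-/

set_option autoImplicit false
set_option linter.unusedSectionVars false

namespace Cfsg.Agent.H195.FP

open Module Cfsg.Agent.H920.FP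

section greedy

variable {F V : Type*} [Field F] [Finite F] [AddCommGroup V] [Module F V] [Finite V]

/-- the greedy step -/
theorem greedy_next {x : V →ₗ[F] V} {s c m : ℕ} (hf : Far x s) (E : Submodule F V)
    (hE : Nat.card V ≤ Nat.card E * Nat.card F ^ c) (h : 2 * m + c + 2 ≤ s) {u : Fin m → V}
    (hu : LinearIndependent F (Sum.elim u (fun i => x (u i)))) :
    ∃ y ∈ E, LinearIndependent F (Sum.elim (Fin.snoc u y : Fin (m + 1) → V) (fun i => x ((Fin.snoc u y : Fin (m + 1) → V) i))) := by
  classical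
  have := Fintype.ofFinite F
  have : Module.Finite F V := Module.Finite.of_finite
  have hF : 1 < Nat.card F := Finite.one_lt_card
  set M : Submodule F V := Submodule.span F (Set.range (Sum.elim u (fun i => x (u i)))) with hM
  have hMc : Nat.card M = Nat.card F ^ (2 * m) := by
    rw [Module.natCard_eq_pow_finrank (K := F), hM, finrank_span_eq_card hu, Fintype.card_sum, Fintype.card_fin,
      two_mul]
  have hB := card_bad hf M
  rw [hMc] at hB
  obtain ⟨t, rfl⟩ : ∃ t, s = 2 * m + c + 2 + t := ⟨s - (2 * m + c + 2), by omega⟩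
  have hlt : Nat.card (Bad x M) < Nat.card E := by
    have hq : Nat.card F + 1 < Nat.card F ^ 2 := by nlinarith
    have hEp : 0 < Nat.card E := Nat.card_pos
    refine lt_of_mul_lt_mul_right (a := Nat.card F ^ (2 * m + c + 2 + t)) ?_ (Nat.zero_le _)
    calc Nat.card (Bad x M) * Nat.card F ^ (2 * m + c + 2 + t)
        ≤ (Nat.card F + 1) * Nat.card F ^ (2 * m) * Nat.card V := hB
      _ ≤ (Nat.card F + 1) * Nat.card F ^ (2 * m) * (Nat.card E * Nat.card F ^ c) :=
          Nat.mul_le_mul_left _ hE
      _ = (Nat.card F + 1) * (Nat.card E * Nat.card F ^ (2 * m + c)) := by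
          rw [pow_add]; ring
      _ < Nat.card F ^ 2 * (Nat.card E * Nat.card F ^ (2 * m + c)) := by
          apply Nat.mul_lt_mul_of_pos_right hq
          positivity
      _ = Nat.card E * Nat.card F ^ (2 * m + c + 2) := by rw [pow_add _ (2 * m + c) 2]; ring
      _ ≤ Nat.card E * Nat.card F ^ (2 * m + c + 2 + t) :=
          Nat.mul_le_mul_left _ (Nat.pow_le_pow_right hF.le (by omega))
  obtain ⟨y, hyE, hyB⟩ : ∃ y ∈ E, y ∉ Bad x M := by
    by_contra hcon
    push Not at hcon
    have h1 : Nat.card E ≤ Nat.card (Bad x M) := Nat.card_mono (Set.toFinite _) (fun y hy => hcon y hy)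
    omega
  refine ⟨y, hyE, ?_⟩
  rw [Fintype.linearIndependent_iff]
  intro g hg
  rw [Fintype.sum_sum_type, Fin.sum_univ_castSucc, Fin.sum_univ_castSucc] at hg
  simp only [Sum.elim_inl, Sum.elim_inr, Fin.snoc_castSucc, Fin.snoc_last] at hg
  have hm : (∑ i : Fin m, g (Sum.inl i.castSucc) • u i) + ∑ i : Fin m, g (Sum.inr i.castSucc) • x (u i) ∈ M := by
    refine M.add_mem (M.sum_mem fun i _ => M.smul_mem _ ?_) (M.sum_mem fun i _ => M.smul_mem _ ?_)
    · exact Submodule.subset_span ⟨Sum.inl i, rfl⟩
    · exact Submodule.subset_span ⟨Sum.inr i, rfl⟩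
  have hlast : g (Sum.inl (Fin.last m)) = 0 ∧ g (Sum.inr (Fin.last m)) = 0 := by
    by_contra hcon
    apply hyB
    refine ⟨g (Sum.inl (Fin.last m)), g (Sum.inr (Fin.last m)), ?_, ?_⟩
    · by_contra h2
      push Not at h2
      exact hcon h2
    · have h3 : g (Sum.inl (Fin.last m)) • y + g (Sum.inr (Fin.last m)) • x y =
          -((∑ i : Fin m, g (Sum.inl i.castSucc) • u i) + ∑ i : Fin m, g (Sum.inr i.castSucc) • x (u i)) := by
        rw [eq_neg_iff_add_eq_zero, ← hg]
        abel
      rw [h3]
      exact M.neg_mem hm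
  rw [hlast.1, hlast.2, zero_smul, zero_smul, add_zero, add_zero] at hg
  have hli := Fintype.linearIndependent_iff.1 hu (fun i => g (Sum.map Fin.castSucc Fin.castSucc i)) (by
    rw [Fintype.sum_sum_type]
    simpa using hg)
  intro i
  rcases i with i | i
  · refine Fin.lastCases hlast.1 (fun i => ?_) i
    exact hli (Sum.inl i)
  · refine Fin.lastCases hlast.2 (fun i => ?_) i
    exact hli (Sum.inr i)

/-- `w`, `x w` jointly independent with `w` in a large subspace -/
theorem greedy {x : V →ₗ[F] V} {s c : ℕ} (hf : Far x s) (E : Submodule F V)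
    (hE : Nat.card V ≤ Nat.card E * Nat.card F ^ c) (m : ℕ) (h : 2 * m + c ≤ s) :
    ∃ u : Fin m → V, (∀ i, u i ∈ E) ∧ LinearIndependent F (Sum.elim u (fun i => x (u i))) := by
  induction m with
  | zero =>
    refine ⟨Fin.elim0, fun i => i.elim0, ?_⟩
    have : IsEmpty (Fin 0 ⊕ Fin 0) := inferInstance
    exact linearIndependent_empty_type
  | succ m ih =>
    obtain ⟨u, hu, hli⟩ := ih (by omega)
    obtain ⟨y, hy, h1⟩ := greedy_next hf E hE (by omega) hli
    refine ⟨Fin.snoc u y, fun i => ?_, h1⟩
    refine Fin.lastCases ?_ (fun i => ?_) i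
    · rw [Fin.snoc_last]; exact hy
    · rw [Fin.snoc_castSucc]; exact hu i

end greedy

section dual

variable {F V : Type*} [Field F] [Finite F] [AddCommGroup V] [Module F V] [Finite V]

theorem finrank_ker_dualMap [FiniteDimensional F V] (T : V →ₗ[F] V) :
    finrank F (LinearMap.ker T.dualMap) = finrank F (LinearMap.ker T) := by
  have h1 := LinearMap.finrank_range_add_finrank_ker T
  have h2 := LinearMap.finrank_range_add_finrank_ker T.dualMap
  rw [LinearMap.finrank_range_dualMap_eq_finrank_range, Subspace.dual_finrank_eq] at h2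
  omega

theorem card_ker_dualMap (T : V →ₗ[F] V) :
    Nat.card (LinearMap.ker T.dualMap) = Nat.card (LinearMap.ker T) := by
  have hfd : Module.Finite F V := Module.Finite.of_finite
  rw [Module.natCard_eq_pow_finrank (K := F) (V := LinearMap.ker T.dualMap),
    Module.natCard_eq_pow_finrank (K := F) (V := LinearMap.ker T), finrank_ker_dualMap]

/-- the dual map of the inverse is far from the scalars -/
theorem far_dual {x : V ≃ₗ[F] V} {s : ℕ} (hf : Far x.toLinearMap s) : Far x.symm.toLinearMap.dualMap s := by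
  have hfd : Module.Finite F V := Module.Finite.of_finite
  have hfd' : Finite (Dual F V) := Module.finite_of_finite F
  intro a b hab
  have h1 := hf b a hab.symm
  have e1 : Nat.card {f : Dual F V // a • f + b • x.symm.toLinearMap.dualMap f = 0} =
      Nat.card {u : V // b • u + a • x.toLinearMap u = 0} := by
    have k1 : Nat.card {f : Dual F V // a • f + b • x.symm.toLinearMap.dualMap f = 0} =
        Nat.card (LinearMap.ker (a • LinearMap.id + b • x.symm.toLinearMap : V →ₗ[F] V).dualMap) := by
      refine Nat.card_congr (Equiv.subtypeEquivRight fun f => ?_)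
      rw [LinearMap.mem_ker]
      have : (a • LinearMap.id + b • x.symm.toLinearMap : V →ₗ[F] V).dualMap f =
          a • f + b • x.symm.toLinearMap.dualMap f := by
        ext v
        simp
      rw [this]
    have k2 : Nat.card {u : V // b • u + a • x.toLinearMap u = 0} =
        Nat.card (LinearMap.ker (a • LinearMap.id + b • x.symm.toLinearMap : V →ₗ[F] V)) := by
      refine Nat.card_congr (Equiv.subtypeEquiv x.toEquiv fun u => ?_)
      rw [LinearMap.mem_ker]
      have : (a • LinearMap.id + b • x.symm.toLinearMap : V →ₗ[F] V) (x u) = b • u + a • x u := by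
        simp [add_comm]
      show _ ↔ (a • LinearMap.id + b • x.symm.toLinearMap : V →ₗ[F] V) (x u) = 0
      rw [this]
      rfl
    rw [k1, k2, card_ker_dualMap]
  rw [e1, Module.natCard_eq_pow_finrank (K := F) (V := Dual F V), Subspace.dual_finrank_eq,
    ← Module.natCard_eq_pow_finrank (K := F) (V := V)]
  exact h1

end dual

section basis

variable {F V : Type*} [Field F] [AddCommGroup V] [Module F V] [FiniteDimensional F V]

/-- values of independent functionals -/
theorem exists_values {ι : Type*} [Finite ι] {f : ι → Dual F V} (hf : LinearIndependent F f) (α : ι → F) :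
    ∃ v : V, ∀ i, f i v = α i := by
  classical
  have := Fintype.ofFinite ι
  have hsurj : Function.Surjective (LinearMap.pi f : V →ₗ[F] ι → F) := by
    rw [← LinearMap.range_eq_top]
    by_contra hne
    obtain ⟨φ, hφ0, hφ⟩ := Submodule.exists_le_ker_of_lt_top _ (lt_top_iff_ne_top.2 hne)
    apply hφ0
    have h1 : ∀ v : V, ∑ i, φ (Pi.single i 1) • f i v = 0 := by
      intro v
      have h2 : φ ((LinearMap.pi f : V →ₗ[F] ι → F) v) = 0 := hφ ⟨v, rfl⟩
      rw [LinearMap.pi_apply_eq_sum_univ] at h2
      rw [← h2]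
      refine Finset.sum_congr rfl fun i _ => ?_
      rw [smul_eq_mul, smul_eq_mul, mul_comm]
      congr 1
      congr 1
      funext j
      rw [Pi.single_apply]
      simp only [eq_comm]
    have h3 := Fintype.linearIndependent_iff.1 hf (fun i => φ (Pi.single i 1)) (by
      ext v
      rw [LinearMap.sum_apply]
      simpa using h1 v)
    ext i
    simpa using h3 i
  obtain ⟨v, hv⟩ := hsurj α
  exact ⟨v, fun i => by rw [← hv]; rfl⟩

/-- functionals with given values on independent vectors -/
theorem exists_functional {ι : Type*} {v : ι → V} (hv : LinearIndependent F v) (α : ι → F) :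
    ∃ g : Dual F V, ∀ i, g (v i) = α i := by
  obtain ⟨g, hg⟩ := LinearMap.exists_extend ((Basis.span hv).constr F α)
  refine ⟨g, fun i => ?_⟩
  have h1 := congrArg (fun φ => φ (Basis.span hv i)) hg
  simp only [Basis.constr_basis] at h1
  rw [← h1]
  show g (v i) = g ((Basis.span hv i : Submodule.span F (Set.range v)) : V)
  rw [Basis.span_apply]

variable {ι : Type} [Fintype ι] [DecidableEq ι]

/-- a basis from a dual pair -/
theorem exists_basis (e : ι → V) (f : ι → Dual F V) (hef : ∀ i j, f i (e j) = if i = j then 1 else 0) :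
    ∃ (κ : Type) (_ : Fintype κ) (_ : DecidableEq κ) (b : Basis (ι ⊕ κ) F V), (∀ i, b (Sum.inl i) = e i) ∧
      (∀ i v, b.repr v (Sum.inl i) = f i v) ∧ ∀ v, (∀ i, f i v = 0) → ∀ i, b.repr v (Sum.inl i) = 0 := by
  classical
  let D : Submodule F V := LinearMap.ker (LinearMap.pi f : V →ₗ[F] ι → F)
  have hD : ∀ v, v ∈ D ↔ ∀ i, f i v = 0 := by
    intro v
    rw [LinearMap.mem_ker]
    exact funext_iff
  let pr : V →ₗ[F] D := LinearMap.codRestrict D (LinearMap.id - ∑ i, (f i).smulRight (e i)) (by
    intro v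
    rw [hD]
    intro i
    simp [hef])
  have hpr : ∀ v, (pr v : V) = v - ∑ i, f i v • e i := by
    intro v
    show (LinearMap.id - ∑ i, (f i).smulRight (e i) : V →ₗ[F] V) v = _
    simp
  let E : V ≃ₗ[F] (ι → F) × D := LinearEquiv.ofLinearMap
    ((LinearMap.pi f).prod pr)
    (LinearMap.coprod (∑ i, (LinearMap.proj i).smulRight (e i)) D.subtype)
    (by
      refine LinearMap.ext fun z => ?_
      obtain ⟨a, d⟩ := z
      have hd := (hD d).1 d.2
      refine Prod.ext (funext fun i => ?_) (Subtype.ext ?_)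
      · show f i ((∑ i, (LinearMap.proj i : (ι → F) →ₗ[F] F).smulRight (e i)) a + (d : V)) = a i
        rw [map_add, hd, add_zero]
        simp [hef]
      · show ((pr ((∑ i, (LinearMap.proj i : (ι → F) →ₗ[F] F).smulRight (e i)) a + (d : V)) : D) : V) = d
        rw [hpr]
        simp [hef, hd])
    (by
      refine LinearMap.ext fun v => ?_
      show (∑ i, (LinearMap.proj i : (ι → F) →ₗ[F] F).smulRight (e i)) (fun i => f i v) + (pr v : V) = v
      rw [hpr]
      simp)
  let b : Basis (ι ⊕ Fin (finrank F D)) F V := ((Pi.basisFun F ι).prod (Module.finBasis F D)).map E.symm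
  have hb1 : ∀ i, b (Sum.inl i) = e i := by
    intro i
    show E.symm (((Pi.basisFun F ι).prod (Module.finBasis F D)) (Sum.inl i)) = e i
    rw [Basis.prod_apply]
    simp only [Sum.elim_inl, Function.comp_apply, LinearMap.inl_apply, Pi.basisFun_apply]
    show (∑ i, (LinearMap.proj i : (ι → F) →ₗ[F] F).smulRight (e i)) (Pi.single i 1) + ((0 : D) : V) = e i
    simp [Pi.single_apply]
  have hb2 : ∀ i v, b.repr v (Sum.inl i) = f i v := by
    intro i v
    show (((Pi.basisFun F ι).prod (Module.finBasis F D)).repr (E v)) (Sum.inl i) = f i v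
    rw [Basis.prod_repr_inl]
    rfl
  exact ⟨Fin (finrank F D), inferInstance, inferInstance, b, hb1, hb2, fun v hv i => by rw [hb2, hv]⟩

end basis

section main

variable {F V : Type*} [Field F] [Finite F] [AddCommGroup V] [Module F V] [Finite V]

/-- a subspace cut out by functionals -/
theorem card_cut {ι : Type*} [Finite ι] (a : ι → Dual F V) :
    Nat.card V ≤ Nat.card (LinearMap.ker (LinearMap.pi a : V →ₗ[F] ι → F)) * Nat.card F ^ Nat.card ι := by
  have := Fintype.ofFinite ι
  have := Fintype.ofFinite F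
  set φ : V →ₗ[F] (ι → F) := LinearMap.pi a
  have h1 : Nat.card φ.toAddMonoidHom.ker * φ.toAddMonoidHom.ker.index = Nat.card V := AddSubgroup.card_mul_index _
  rw [AddSubgroup.index_ker] at h1
  have h3 : Nat.card φ.toAddMonoidHom.range ≤ Nat.card F ^ Nat.card ι := by
    calc Nat.card φ.toAddMonoidHom.range ≤ Nat.card (ι → F) := Nat.card_le_card_of_injective _ Subtype.val_injective
      _ = Nat.card F ^ Nat.card ι := by
          rw [Nat.card_pi, Finset.prod_const, Finset.card_univ, Nat.card_eq_fintype_card (α := ι)]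
  have h2 : Nat.card φ.toAddMonoidHom.ker = Nat.card (LinearMap.ker φ) := rfl
  rw [← h1, h2]
  exact Nat.mul_le_mul_left _ h3

/-- the vectors and functionals -/
theorem exists_data {x : V ≃ₗ[F] V} {s : ℕ} (hf : Far x.toLinearMap s) (k : ℕ) (hk : 5 * k ≤ s) :
    ∃ (v w : Fin k → V) (f g : Fin k → Dual F V),
      (∀ i j, f i (v j) = if i = j then 1 else 0) ∧ (∀ i j, f i (w j) = 0) ∧ (∀ i j, g i (v j) = 0) ∧
      (∀ i j, g i (w j) = if i = j then 1 else 0) ∧ (∀ i j, f i (x (w j)) = 0) ∧ (∀ i j, g i (x (w j)) = 0) ∧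
      (∀ i j, f i (x.symm (v j)) = 0) ∧ ∀ i j, f i (x.symm (w j)) = 0 := by
  classical
  have hfd : Module.Finite F V := Module.Finite.of_finite
  have hfd' : Finite (Dual F V) := Module.finite_of_finite F
  obtain ⟨f, -, hli⟩ := greedy (c := 0) (far_dual hf) (⊤ : Submodule F (Dual F V)) (by
    rw [pow_zero, mul_one]
    exact (Nat.card_congr (Equiv.Set.univ (Dual F V))).symm.le) k (by omega)
  have hfx : ∀ i u, x.symm.toLinearMap.dualMap (f i) u = f i (x.symm u) := fun _ _ => rfl
  let a : (Fin k ⊕ Fin k) ⊕ Fin k → Dual F V := Sum.elim (Sum.elim f fun i => (f i).comp x.symm.toLinearMap)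
    fun i => (f i).comp x.toLinearMap
  have hι : Nat.card ((Fin k ⊕ Fin k) ⊕ Fin k) = 3 * k := by
    rw [Nat.card_eq_fintype_card, Fintype.card_sum, Fintype.card_sum, Fintype.card_fin]; ring
  have hE := card_cut a
  rw [hι] at hE
  obtain ⟨w, hw, hlw⟩ := greedy (c := 3 * k) hf _ hE k (by omega)
  have hw' : ∀ j i, a i (w j) = 0 := fun j i => congrFun (LinearMap.mem_ker.1 (hw j)) i
  have w1 : ∀ i j, f i (w j) = 0 := fun i j => hw' j (Sum.inl (Sum.inl i))
  have w2 : ∀ i j, f i (x.symm (w j)) = 0 := fun i j => hw' j (Sum.inl (Sum.inr i))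
  have w3 : ∀ i j, f i (x (w j)) = 0 := fun i j => hw' j (Sum.inr i)
  have hv : ∀ j : Fin k, ∃ v : V, ∀ i, Sum.elim f (fun i => x.symm.toLinearMap.dualMap (f i)) i v =
      Sum.elim (fun i => if i = j then (1 : F) else 0) (fun _ => 0) i := fun j => exists_values hli _
  choose v hv using hv
  have v1 : ∀ i j, f i (v j) = if i = j then 1 else 0 := fun i j => hv j (Sum.inl i)
  have v2 : ∀ i j, f i (x.symm (v j)) = 0 := fun i j => hv j (Sum.inr i)
  have hind : LinearIndependent F (Sum.elim v (Sum.elim w fun i => x (w i))) := by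
    rw [Fintype.linearIndependent_iff] at hlw ⊢
    intro c hc
    rw [Fintype.sum_sum_type] at hc
    simp only [Sum.elim_inl, Sum.elim_inr] at hc
    have h1 : ∀ i, c (Sum.inl i) = 0 := by
      intro i
      have h2 := congrArg (f i) hc
      rw [map_add, map_sum, map_sum, map_zero] at h2
      have h3 : ∑ j, f i (c (Sum.inl j) • v j) = c (Sum.inl i) := by
        simp [v1]
      have h4 : ∑ j, f i (c (Sum.inr j) • Sum.elim w (fun i => x.toLinearMap (w i)) j) = 0 := by
        refine Finset.sum_eq_zero fun j _ => ?_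
        rw [map_smul]
        rcases j with j | j
        · simp [w1]
        · simp [w3]
      have h5 : ∑ j, f i (c (Sum.inr j) • Sum.elim w (fun i => x (w i)) j) = 0 := h4
      rw [h3, h5, add_zero] at h2
      exact h2
    have h6 : ∑ j, c (Sum.inr j) • Sum.elim w (fun i => x.toLinearMap (w i)) j = 0 := by
      have h7 : ∑ j, c (Sum.inl j) • v j = 0 := Finset.sum_eq_zero fun j _ => by rw [h1, zero_smul]
      rw [h7, zero_add] at hc
      exact hc
    have h8 := hlw (fun j => c (Sum.inr j)) h6
    intro i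
    rcases i with i | i
    · exact h1 i
    · exact h8 i
  have hg : ∀ i : Fin k, ∃ g : Dual F V, ∀ j, g (Sum.elim v (Sum.elim w fun i => x (w i)) j) =
      Sum.elim (fun _ => (0 : F)) (Sum.elim (fun j => if i = j then 1 else 0) fun _ => 0) j := fun i =>
    exists_functional hind _
  choose g hg using hg
  exact ⟨v, w, f, g, v1, w1, fun i j => hg i (Sum.inl j), fun i j => hg i (Sum.inr (Sum.inl j)), w3,
    fun i j => hg i (Sum.inr (Sum.inr j)), v2, w2⟩

open Matrix in
/-- **The block transvection step, linear side.** -/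
theorem lin_comm (x : V ≃ₗ[F] V) {s : ℕ} (hf : Far x.toLinearMap s) (k : ℕ) (hk : 5 * k ≤ s) :
    ∃ (κ : Type) (_ : Fintype κ) (_ : DecidableEq κ) (b : Basis ((Fin k ⊕ Fin k) ⊕ κ) F V),
      ∀ (C : Matrix (Fin k) (Fin k) F) (g : Matrix (Fin k ⊕ Fin k) (Fin k ⊕ Fin k) F) (y z : V ≃ₗ[F] V),
        LinearMap.toMatrix b b y.toLinearMap = fromBlocks (fromBlocks 1 0 C 1) 0 0 1 →
        LinearMap.toMatrix b b z.toLinearMap = fromBlocks g 0 0 1 → Commute (x * y * x⁻¹) z := by
  classical
  have hfd : Module.Finite F V := Module.Finite.of_finite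
  obtain ⟨v, w, f, g, fv, fw, gv, gw, fxw, gxw, fxv, fxw'⟩ := exists_data hf k hk
  obtain ⟨κ, i1, i2, b, hb1, hb2, -⟩ := exists_basis (Sum.elim v w) (Sum.elim f g) (by
    intro i j
    rcases i with i | i <;> rcases j with j | j <;> simp [fv, fw, gv, gw])
  refine ⟨κ, i1, i2, b, fun C h y z hy hz => ?_⟩
  have hv' : ∀ i, v i = b (Sum.inl (Sum.inl i)) := fun i => (hb1 (Sum.inl i)).symm
  have hw' : ∀ i, w i = b (Sum.inl (Sum.inr i)) := fun i => (hb1 (Sum.inr i)).symm
  have hf' : ∀ i u, f i u = b.repr u (Sum.inl (Sum.inl i)) := fun i u => (hb2 (Sum.inl i) u).symm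
  have hg' : ∀ i u, g i u = b.repr u (Sum.inl (Sum.inr i)) := fun i u => (hb2 (Sum.inr i) u).symm
  -- `y`
  have ey : ∀ u, y u = u + ∑ i, (∑ j, C i j * f j u) • w i := by
    intro u
    have h1 := LinearMap.toMatrix_mulVec_repr b b y.toLinearMap u
    rw [hy, fromBlocks_mulVec, fromBlocks_mulVec] at h1
    apply b.repr.injective
    ext i
    have h2 := congrFun h1 i
    have h3 : (b.repr (y.toLinearMap u)) i = (b.repr (y u)) i := rfl
    rw [← h3, ← h2]
    rcases i with (i | i) | i
    · simp [hw']
    · simp [hw', hf', Finsupp.single_apply, mulVec, dotProduct, add_comm]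
    · simp [hw']
  have ez1 : ∀ u, (∀ i, f i u = 0) → (∀ i, g i u = 0) → z u = u := by
    intro u h3 h4
    have h1 := LinearMap.toMatrix_mulVec_repr b b z.toLinearMap u
    rw [hz, fromBlocks_mulVec] at h1
    have h5 : (b.repr u) ∘ Sum.inl = (0 : Fin k ⊕ Fin k → F) := by
      funext i
      rcases i with i | i
      · exact (hf' i u).symm.trans (h3 i)
      · exact (hg' i u).symm.trans (h4 i)
    rw [h5] at h1
    apply b.repr.injective
    ext i
    have h2 := congrFun h1 i
    have h6 : (b.repr (z.toLinearMap u)) i = (b.repr (z u)) i := rfl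
    rw [← h6, ← h2]
    rcases i with i | i
    · have h7 := congrFun h5 i
      simp only [Function.comp_apply] at h7
      simp [h7]
    · simp
  have ez2 : ∀ u, ∃ c : Fin k ⊕ Fin k → F, z u = u + ∑ i, c i • Sum.elim v w i := by
    intro u
    have h1 := LinearMap.toMatrix_mulVec_repr b b z.toLinearMap u
    rw [hz, fromBlocks_mulVec] at h1
    refine ⟨fun i => b.repr (z u) (Sum.inl i) - b.repr u (Sum.inl i), ?_⟩
    apply b.repr.injective
    have h8 : ∀ i, Sum.elim v w i = b (Sum.inl i) := fun i => (hb1 i).symm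
    ext i
    have h2 := congrFun h1 i
    rcases i with i | i
    · rcases i with i | i
      · simp [h8, Finsupp.single_apply]
      · simp [h8, Finsupp.single_apply]
    · have h6 : (b.repr (z.toLinearMap u)) (Sum.inr i) = (b.repr (z u)) (Sum.inr i) := rfl
      rw [← h6, ← h2]
      simp [h8]
  have key : ∀ u, (x * y * x⁻¹) u = u + ∑ i, (∑ j, C i j * f j (x.symm u)) • x (w i) := by
    intro u
    show x (y (x.symm u)) = _
    rw [ey, map_add, x.apply_symm_apply, map_sum]
    simp only [map_smul]
  show (x * y * x⁻¹) * z = z * (x * y * x⁻¹)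
  apply LinearEquiv.ext
  intro u
  show (x * y * x⁻¹) (z u) = z ((x * y * x⁻¹) u)
  rw [key, key, map_add, map_sum]
  congr 1
  refine Finset.sum_congr rfl fun i _ => ?_
  rw [map_smul, ez1 (x (w i)) (fun j => fxw j i) (fun j => gxw j i)]
  congr 1
  refine Finset.sum_congr rfl fun j _ => ?_
  obtain ⟨c, hc⟩ := ez2 u
  congr 1
  rw [hc, map_add, map_sum, map_add, map_sum]
  have : ∑ i, f j (x.symm (c i • Sum.elim v w i)) = 0 := by
    refine Finset.sum_eq_zero fun i _ => ?_
    rw [map_smul, map_smul]
    rcases i with i | i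
    · simp [fxv]
    · simp [fxw']
  rw [this, add_zero]

end main

section SL

open Matrix

variable {F : Type*} [Field F] {ι κ : Type*} [Fintype ι] [DecidableEq ι] [Fintype κ] [DecidableEq κ]

/-- change of basis -/
noncomputable def toSL (b : Basis κ F (ι → F)) : SpecialLinearGroup κ F →* SpecialLinearGroup ι F where
  toFun M := ⟨LinearMap.toMatrix' (Matrix.toLin b b (M : Matrix κ κ F)), by
    rw [LinearMap.det_toMatrix', LinearMap.det_toLin, M.2]⟩
  map_one' := Subtype.ext (by
    show LinearMap.toMatrix' (Matrix.toLin b b (1 : Matrix κ κ F)) = 1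
    rw [Matrix.toLin_one, LinearMap.toMatrix'_id])
  map_mul' M N := Subtype.ext (by
    show LinearMap.toMatrix' (Matrix.toLin b b ((M : Matrix κ κ F) * (N : Matrix κ κ F))) = _ * _
    rw [Matrix.toLin_mul b b b, LinearMap.toMatrix'_comp])

theorem toMatrix_toSL (b : Basis κ F (ι → F)) (M : SpecialLinearGroup κ F) :
    LinearMap.toMatrix b b (SpecialLinearGroup.toLin' (toSL b M)).toLinearMap = M := by
  have h1 : (SpecialLinearGroup.toLin' (toSL b M)).toLinearMap = Matrix.toLin b b (M : Matrix κ κ F) := by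
    show Matrix.toLin' (LinearMap.toMatrix' (Matrix.toLin b b (M : Matrix κ κ F))) = _
    rw [Matrix.toLin'_toMatrix']
  rw [h1, LinearMap.toMatrix_toLin]

theorem toSL_surjective (b : Basis κ F (ι → F)) : Function.Surjective (toSL b) := by
  intro N
  refine ⟨⟨LinearMap.toMatrix b b (Matrix.toLin' (N : Matrix ι ι F)), ?_⟩, Subtype.ext ?_⟩
  · rw [LinearMap.det_toMatrix, LinearMap.det_toLin', N.2]
  · show LinearMap.toMatrix' (Matrix.toLin b b (LinearMap.toMatrix b b (Matrix.toLin' (N : Matrix ι ι F)))) = N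
    rw [Matrix.toLin_toMatrix, LinearMap.toMatrix'_toLin']

theorem toSL_injective (b : Basis κ F (ι → F)) : Function.Injective (toSL b) := by
  intro M N h
  apply Subtype.ext
  rw [← toMatrix_toSL b M, ← toMatrix_toSL b N, h]

/-- **The linear side for matrices.** `x ∈ SL`, far from the scalars: for a change of basis `toSL b`, all
`x (1 + C) x⁻¹` commute with all `diag(g, 1)`. -/
theorem lin_sl [Finite F] (x : SpecialLinearGroup ι F) {s : ℕ} (hf : Far (Matrix.toLin' (x : Matrix ι ι F)) s) (k : ℕ)
    (hk : 5 * k ≤ s) :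
    ∃ (κ : Type) (_ : Fintype κ) (_ : DecidableEq κ) (b : Basis ((Fin k ⊕ Fin k) ⊕ κ) F (ι → F)),
      ∀ (C : Matrix (Fin k) (Fin k) F) (g : SpecialLinearGroup (Fin k ⊕ Fin k) F),
        Commute (x * toSL b (blk (low C)) * x⁻¹) (toSL b (blk g)) := by
  obtain ⟨κ, i1, i2, b, hb⟩ := lin_comm (SpecialLinearGroup.toLin' x) (s := s) hf k hk
  refine ⟨κ, i1, i2, b, fun C g => ?_⟩
  have h1 := hb C (g : Matrix (Fin k ⊕ Fin k) (Fin k ⊕ Fin k) F) (SpecialLinearGroup.toLin' (toSL b (blk (low C))))
    (SpecialLinearGroup.toLin' (toSL b (blk g))) (toMatrix_toSL b _) (toMatrix_toSL b _)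
  have h2 : SpecialLinearGroup.toLin' (x * toSL b (blk (low C)) * x⁻¹ * toSL b (blk g)) =
      SpecialLinearGroup.toLin' (toSL b (blk g) * (x * toSL b (blk (low C)) * x⁻¹)) := by
    simp only [map_mul, map_inv]
    exact h1
  exact SpecialLinearGroup.toLin'_injective h2

end SL

end Cfsg.Agent.H195.FP
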