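import Cfsg.Agent.H917.FP.Mat
import Cfsg.Agent.H195.FP.Lin
import Cfsg.Agent.H254.BS.PartI
import Cfsg.Agent.H259.NatMod

/-!
# Facts about `SL(ι, F)` for the base size theorem (helper195, S5717)
-/

set_option autoImplicit false
set_option linter.unusedSectionVars false

namespace Cfsg.Agent.H195.FP

open Module Matrix
open LinearEquiv (transvection)
open Cfsg.Agent.H917.FP

section

variable {F : Type*} [Field F] {ι : Type*} [Fintype ι] [DecidableEq ι]

theorem commutator_sl [Fintype F] (h2 : 2 ≤ Fintype.card ι) (h4 : Fintype.card ι = 2 → 4 ≤ Fintype.card F) :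
    commutator (SpecialLinearGroup ι F) = ⊤ := by
  rcases h2.eq_or_lt with h | h
  · have e : ι ≃ Fin 2 := Fintype.equivFinOfCardEq h.symm
    have h1 := Cfsg.Agent.H259.NatMod.commutator_eq_top (F := F) (h4 h.symm)
    let b : Basis (Fin 2) F (ι → F) := (Pi.basisFun F ι).reindex e
    have h5 := Subgroup.map_commutator (⊤ : Subgroup (SpecialLinearGroup (Fin 2) F)) ⊤ (H195.FP.toSL b)
    rw [← commutator_def, h1, Subgroup.map_top_of_surjective _ (H195.FP.toSL_surjective b)] at h5
    rw [commutator_def]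
    exact h5.symm
  · exact Cfsg.Agent.LieClassical.SLGen.commutator_eq_top h

/-- normal subgroups of a quasisimple group -/
theorem normal_of_simple {G : Type*} [Group G] (hp : commutator G = ⊤) (hs : IsSimpleGroup (G ⧸ Subgroup.center G))
    (N : Subgroup G) [N.Normal] : N ≤ Subgroup.center G ∨ N = ⊤ := by
  have hn : (N.map (QuotientGroup.mk' (Subgroup.center G))).Normal :=
    Subgroup.Normal.map inferInstance _ (QuotientGroup.mk'_surjective _)
  rcases hs.eq_bot_or_eq_top_of_normal _ hn with h | h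
  · left
    rw [Subgroup.map_eq_bot_iff, QuotientGroup.ker_mk'] at h
    exact h
  · right
    have h1 : N ⊔ Subgroup.center G = ⊤ := by
      have h3 := congrArg (Subgroup.comap (QuotientGroup.mk' (Subgroup.center G))) h
      rw [Subgroup.comap_map_eq, QuotientGroup.ker_mk', Subgroup.comap_top] at h3
      exact h3
    rw [eq_top_iff, ← hp, commutator_def, Subgroup.commutator_le]
    intro a _ b _
    have ha : a ∈ N ⊔ Subgroup.center G := h1 ▸ Subgroup.mem_top a
    obtain ⟨n, hn, z, hz, rfl⟩ := Subgroup.mem_sup_of_normal_right.1 ha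
    have hz' := Subgroup.mem_center_iff.1 hz
    have e : n * z * b * (n * z)⁻¹ * b⁻¹ = n * (b * n⁻¹ * b⁻¹) := by
      have h5 : n * z * b * (n * z)⁻¹ * b⁻¹ = n * (z * b) * z⁻¹ * n⁻¹ * b⁻¹ := by group
      rw [h5, ← hz' b]
      group
    rw [commutatorElement_def, e]
    exact N.mul_mem hn (Subgroup.Normal.conj_mem inferInstance _ (N.inv_mem hn) b)

/-- every normal subgroup of `SL` is central or everything -/
theorem sl_normal (h2 : 2 ≤ Fintype.card ι) (hp : commutator (SpecialLinearGroup ι F) = ⊤)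
    (N : Subgroup (SpecialLinearGroup ι F)) [N.Normal] :
    N ≤ Subgroup.center (SpecialLinearGroup ι F) ∨ N = ⊤ := by
  have : Nontrivial ι := Fintype.one_lt_card_iff_nontrivial.1 h2
  have hs : IsSimpleGroup (SpecialLinearGroup ι F ⧸ Subgroup.center (SpecialLinearGroup ι F)) :=
    Cfsg.Agent.LieClassical.SLGen.psl_isSimpleGroup_of_perfect hp
  exact normal_of_simple hp hs N

theorem trans_aux {v w : ι → F} (hv : v ≠ 0) (hw : w ∉ Submodule.span F {v}) :
    ∃ g : SpecialLinearGroup ι F, (g : Matrix ι ι F) *ᵥ v = w := by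
  have h1 : v ∉ Submodule.span F {w - v} := by
    intro h
    obtain ⟨c, hc⟩ := Submodule.mem_span_singleton.1 h
    have hc0 : c ≠ 0 := by
      rintro rfl
      rw [zero_smul] at hc
      exact hv hc.symm
    apply hw
    rw [Submodule.mem_span_singleton]
    refine ⟨c⁻¹ + 1, ?_⟩
    rw [add_smul, one_smul]
    nth_rewrite 1 [← hc]
    rw [smul_smul, inv_mul_cancel₀ hc0, one_smul, sub_add_cancel]
  obtain ⟨f, hf, hf'⟩ := Submodule.exists_le_ker_of_notMem h1
  have hz : ((f v)⁻¹ • f) (w - v) = 0 := by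
    have : f (w - v) = 0 := hf' (Submodule.mem_span_singleton_self _)
    rw [LinearMap.smul_apply, this, smul_zero]
  refine ⟨H917.FP.toSL (tt hz), ?_⟩
  rw [H917.FP.toSL_mulVec]
  change transvection hz v = w
  rw [tv_apply, LinearMap.smul_apply, smul_eq_mul, inv_mul_cancel₀ hf, one_smul]
  abel

/-- `SL` is transitive on the non-zero column vectors -/
theorem sl_col (h2 : 2 ≤ Fintype.card ι) {v w : ι → F} (hv : v ≠ 0) (hw : w ≠ 0) :
    ∃ g : SpecialLinearGroup ι F, (g : Matrix ι ι F) *ᵥ v = w := by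
  by_cases h : w ∈ Submodule.span F {v}
  · obtain ⟨c, rfl⟩ := Submodule.mem_span_singleton.1 h
    have hc0 : c ≠ 0 := by
      rintro rfl
      exact hw (zero_smul _ _)
    obtain ⟨u, hu⟩ : ∃ u : ι → F, u ∉ Submodule.span F {v} := by
      by_contra! hcon
      have h3 : Submodule.span F {v} = ⊤ := by rw [eq_top_iff]; exact fun x _ => hcon x
      have h4 := finrank_span_singleton (K := F) hv
      rw [h3, finrank_top, finrank_fintype_fun_eq_card] at h4
      omega
    have hu0 : u ≠ 0 := by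
      rintro rfl
      exact hu (Submodule.zero_mem _)
    obtain ⟨g, hg⟩ := trans_aux hv hu
    obtain ⟨g', hg'⟩ := trans_aux (v := u) (w := c • v) hu0 (by
      intro h3
      obtain ⟨d, hd⟩ := Submodule.mem_span_singleton.1 h3
      have hd0 : d ≠ 0 := by
        rintro rfl
        rw [zero_smul] at hd
        exact hw hd.symm
      apply hu
      rw [Submodule.mem_span_singleton]
      refine ⟨d⁻¹ * c, ?_⟩
      rw [mul_smul, ← hd, smul_smul, inv_mul_cancel₀ hd0, one_smul])
    refine ⟨g' * g, ?_⟩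
    change ((g' : Matrix ι ι F) * (g : Matrix ι ι F)) *ᵥ v = c • v
    rw [← mulVec_mulVec, hg, hg']
  · exact trans_aux hv h

/-- `SL` is transitive on the non-zero row vectors -/
theorem sl_row (h2 : 2 ≤ Fintype.card ι) {v w : ι → F} (hv : v ≠ 0) (hw : w ≠ 0) :
    ∃ g : SpecialLinearGroup ι F, v ᵥ* (g : Matrix ι ι F) = w := by
  obtain ⟨g, hg⟩ := sl_col h2 hv hw
  refine ⟨g.transpose, ?_⟩
  rw [SpecialLinearGroup.coe_transpose, vecMul_transpose, hg]

end

/-- a matrix of support `0` is scalar -/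
theorem scalar_of_supp {F : Type} [Field F] {ι : Type} [Fintype ι] [DecidableEq ι] (A : Matrix ι ι F)
    (h : Cfsg.Agent.H254.BS.PI.supp A = 0) : ∃ μ : F, A = Matrix.scalar ι μ := by
  obtain ⟨μ, hμ⟩ := Nat.sInf_mem (s := Set.range fun μ : F => (A - Matrix.scalar ι μ).rank) ⟨_, 0, rfl⟩
  have h1 : (A - Matrix.scalar ι μ).rank = 0 := hμ.trans h
  refine ⟨μ, ?_⟩
  rw [← sub_eq_zero]
  unfold Matrix.rank at h1
  have h2 := Submodule.finrank_eq_zero.1 h1
  rw [LinearMap.range_eq_bot] at h2
  apply Matrix.toLin'.injective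
  rw [map_zero]
  exact h2

theorem central_of_supp {F : Type} [Field F] {ι : Type} [Fintype ι] [DecidableEq ι] (x : SpecialLinearGroup ι F)
    (h : Cfsg.Agent.H254.BS.PI.supp (x : Matrix ι ι F) = 0) : x ∈ Subgroup.center (SpecialLinearGroup ι F) := by
  obtain ⟨μ, hμ⟩ := scalar_of_supp _ h
  rw [Subgroup.mem_center_iff]
  intro g
  apply Subtype.ext
  change (g : Matrix ι ι F) * (x : Matrix ι ι F) = (x : Matrix ι ι F) * (g : Matrix ι ι F)
  rw [hμ]
  exact (Matrix.scalar_commute μ (fun r => mul_comm _ _) _).symm.eq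

end Cfsg.Agent.H195.FP
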