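import Cfsg.Agent.H195.FP.Two
import Cfsg.Agent.H917.FP.Mat
import Cfsg.Agent.H917.FP.SLTwo
import Cfsg.Agent.H920.FP.G7
import Cfsg.Agent.H254.BS.PartI
import Mathlib.FieldTheory.Finite.Extension

/-!
# The large support theorem for `SL_n` (helper195, S5717)
-/

set_option autoImplicit false
set_option linter.unusedSectionVars false

namespace Cfsg.Agent.H195.FP

open Module Cfsg.Agent.H920.FP Cfsg.Agent.H917.FP Matrix

/-- the numerical end -/
theorem num_end {f β q : ℝ} {s k : ℕ} (hq : 0 < q) (hβ0 : 0 < β) (hβ : 1 / q = β ^ 64)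
    (hβ1 : β ≤ 1) (h : f ^ 4 ≤ 38 * β ^ k) (hs : s ≤ 10 * k) : f ^ 2560 * q ^ s ≤ 38 ^ 640 := by
  have h1 : (f ^ 4) ^ 640 ≤ (38 * β ^ k) ^ 640 := pow_le_pow_left₀ (by positivity) h 640
  have h2 : (38 * β ^ k) ^ 640 = 38 ^ 640 * (β ^ 64) ^ (10 * k) := by
    rw [mul_pow, ← pow_mul, ← pow_mul]
    congr 2
    ring
  have h3 : (β ^ 64) ^ (10 * k) ≤ (β ^ 64) ^ s :=
    pow_le_pow_of_le_one (by positivity) (pow_le_one₀ hβ0.le hβ1) hs
  have h4 : (β ^ 64) ^ s * q ^ s = 1 := by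
    rw [← mul_pow, ← hβ, one_div, inv_mul_cancel₀ hq.ne', one_pow]
  have h5 : f ^ 2560 = (f ^ 4) ^ 640 := by rw [← pow_mul]
  calc f ^ 2560 * q ^ s ≤ (38 ^ 640 * (β ^ 64) ^ s) * q ^ s := by
        apply mul_le_mul_of_nonneg_right _ (by positivity)
        rw [h5]
        refine h1.trans (h2.le.trans ?_)
        exact mul_le_mul_of_nonneg_left h3 (by positivity)
    _ = 38 ^ 640 * ((β ^ 64) ^ s * q ^ s) := mul_assoc _ _ _
    _ = 38 ^ 640 := by rw [h4, mul_one]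

/-- the fixed point ratio of the whole group is `0` without global fixed points -/
theorem fpr_univ_eq_zero {G : Type*} [Group G] {Ω : Type*} [Finite Ω] [MulAction G Ω] (h : ∀ ω : Ω, ∃ g : G, g • ω ≠ ω) :
    fpr Ω (Set.univ : Set G) = 0 := by
  have : IsEmpty {w : Ω // ∀ a ∈ (Set.univ : Set G), a • w = w} := ⟨fun w => by
    obtain ⟨g, hg⟩ := h w.1
    exact hg (w.2 g trivial)⟩
  unfold fpr
  rw [Nat.card_of_isEmpty]
  simp

theorem large_aux {F : Type} [Field F] [Fintype F] {ι : Type} [Fintype ι] [DecidableEq ι]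
    (x : SpecialLinearGroup ι F) {s : ℕ} (hs : ∀ μ : F, s ≤ ((x : Matrix ι ι F) - Matrix.scalar ι μ).rank)
    (hs10 : 10 ≤ s) (hsn : s ≤ Fintype.card ι) (Ω : Type) [Finite Ω] [MulAction (SpecialLinearGroup ι F) Ω]
    (hfix : ∀ ω : Ω, ∃ g : SpecialLinearGroup ι F, g • ω ≠ ω) :
    ∃ β : ℝ, 0 < β ∧ β ≤ 1 ∧ 1 / (Fintype.card F : ℝ) = β ^ 64 ∧ fpr Ω {x} ^ 4 ≤ 38 * β ^ (s / 5) := by
  classical
  have hq : 1 < Fintype.card F := Fintype.one_lt_card
  have hqR : (1 : ℝ) < Fintype.card F := by exact_mod_cast hq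
  set q : ℝ := (Fintype.card F : ℝ) with hqd
  set β : ℝ := (1 / q) ^ ((1 : ℝ) / 64) with hβd
  have hβ0 : 0 < β := by positivity
  have hβ64 : β ^ 64 = 1 / q := by
    rw [hβd, ← Real.rpow_natCast, ← Real.rpow_mul (by positivity)]
    norm_num
  have hβ1 : β ≤ 1 := by
    apply Real.rpow_le_one (by positivity) _ (by norm_num)
    rw [div_le_one (by linarith)]; exact hqR.le
  refine ⟨β, hβ0, hβ1, hβ64.symm, ?_⟩
  set k := s / 5 with hk
  have hk2 : 2 ≤ k := by omega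
  obtain ⟨κ, i1, i2, b, hb⟩ := lin_sl x (far_of_rank hsn hs) k (by omega)
  -- the field of degree `k`
  let p := ringChar F
  have : CharP F p := ringChar.charP F
  have : Fact p.Prime := ⟨CharP.char_is_prime F p⟩
  have : NeZero k := ⟨by omega⟩
  let K := FiniteField.Extension F p k
  have hrank : finrank F K = k := FiniteField.finrank_extension F p k
  have hcK : Nat.card K = Nat.card F ^ k := FiniteField.natCard_extension F p k
  have : Finite K := Module.finite_of_finite F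
  let bK : Basis (Fin k) F K := finBasisOfFinrankEq F K hrank
  let : Fintype K := Fintype.ofFinite K
  have hcK' : (Fintype.card K : ℝ) = q ^ k := by
    rw [← Nat.card_eq_fintype_card, hcK, Nat.card_eq_fintype_card, Nat.cast_pow]
  have hcard : Fintype.card ((Fin k ⊕ Fin k) ⊕ κ) = Fintype.card ι := by
    rw [← finrank_eq_card_basis b, finrank_fintype_fun_eq_card]
  set φ : SpecialLinearGroup (Fin 2) K →* SpecialLinearGroup ι F := (toSL b).comp (blk.comp (sl2K bK)) with hφ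
  -- the bound for the range
  have hr : fpr Ω (Set.range φ) ≤ 7 * β ^ k := by
    have h := mat_bound (Ω := Ω) (le_refl (0 : ℝ)) hβ0 hβ1 (by rw [Nat.card_eq_fintype_card]; exact hβ64.symm.le)
      bK (by rw [Fintype.card_fin]; exact hk2) (toSL b) (by rw [hcard]; omega)
      (by rw [(toSL_surjective b).range_eq, fpr_univ_eq_zero hfix, zero_mul])
    rw [zero_add, Fintype.card_fin] at h
    exact h
  have hinv : 1 / (Fintype.card K : ℝ) = (β ^ 64) ^ k := by
    rw [hcK', hβ64, _root_.one_div_pow]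
  have hbase : 1 / √(Fintype.card K : ℝ) ≤ β ^ k := by
    have h1 : √(1 / (Fintype.card K : ℝ)) = 1 / √(Fintype.card K : ℝ) := by
      rw [Real.sqrt_div zero_le_one, Real.sqrt_one]
    rw [← h1, Real.sqrt_le_iff]
    refine ⟨by positivity, ?_⟩
    rw [hinv, ← pow_mul, ← pow_mul]
    exact pow_le_pow_of_le_one hβ0.le hβ1 (by omega)
  have h := fpr_of_commute (K := K) Ω φ x (fun c y => by
    have h1 := hb (Algebra.leftMulMatrix bK c) (sl2K bK y)
    rw [← sl2K_lo] at h1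
    exact h1) (δ := 14 * β ^ k) (by positivity) (fun z hz => by
    have h1 := fpr_sl2_hom (Ω := Ω) (by
      have : (2 : ℕ) ^ 2 ≤ Fintype.card F ^ k := (Nat.pow_le_pow_left hq 2).trans (Nat.pow_le_pow_right (by omega) hk2)
      rw [← Nat.card_eq_fintype_card, hcK, Nat.card_eq_fintype_card]
      omega) φ hz
    have h2 : 7 / √(Fintype.card K : ℝ) = 7 * (1 / √(Fintype.card K : ℝ)) := by ring
    rw [h2] at h1
    linarith)
  have hK : 1 / (Nat.card K : ℝ) ≤ β ^ k := by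
    rw [Nat.card_eq_fintype_card, hinv, ← pow_mul]
    exact pow_le_pow_of_le_one hβ0.le hβ1 (by omega)
  have h3 : 10 / (Nat.card K : ℝ) = 10 * (1 / (Nat.card K : ℝ)) := by ring
  rw [h3] at h
  linarith

/-- **The large support theorem for `SL`.** -/
theorem large_sl : ∃ C : ℕ, 0 < C ∧ ∀ (F : Type) [Field F] [Fintype F] (ι : Type) [Fintype ι] [DecidableEq ι]
    (x : SpecialLinearGroup ι F), 10 ≤ Cfsg.Agent.H254.BS.PI.supp (x : Matrix ι ι F) →
    ∀ (Ω : Type) [Finite Ω] [MulAction (SpecialLinearGroup ι F) Ω],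
      (∀ ω : Ω, ∃ g : SpecialLinearGroup ι F, g • ω ≠ ω) →
      fpr Ω {x} ^ C * (Fintype.card F : ℝ) ^ Cfsg.Agent.H254.BS.PI.supp (x : Matrix ι ι F) ≤ C := by
  obtain ⟨C, hC⟩ : ∃ C : ℕ, C = 2560 + 38 ^ 640 := ⟨_, rfl⟩
  refine ⟨C, by omega, fun F _ _ ι _ _ x hx Ω _ _ hfix => ?_⟩
  set s := Cfsg.Agent.H254.BS.PI.supp (x : Matrix ι ι F) with hs
  have hs1 : ∀ μ : F, s ≤ ((x : Matrix ι ι F) - Matrix.scalar ι μ).rank := fun μ => Nat.sInf_le ⟨μ, rfl⟩
  have hsn : s ≤ Fintype.card ι := (hs1 0).trans (Matrix.rank_le_card_width _)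
  obtain ⟨β, hβ0, hβ1, hβ, h⟩ := large_aux x hs1 hx hsn Ω hfix
  have hq : (0 : ℝ) < Fintype.card F := by exact_mod_cast Fintype.card_pos
  have h1 := num_end hq hβ0 hβ hβ1 h (s := s) (by omega)
  have h2 : fpr Ω {x} ^ C ≤ fpr Ω {x} ^ 2560 :=
    pow_le_pow_of_le_one (fpr_nonneg Ω _) (fpr_le_one Ω _) (by omega)
  calc fpr Ω {x} ^ C * (Fintype.card F : ℝ) ^ s ≤ fpr Ω {x} ^ 2560 * (Fintype.card F : ℝ) ^ s := by gcongr
    _ ≤ 38 ^ 640 := h1
    _ ≤ C := by
      have h3 : ((38 ^ 640 : ℕ) : ℝ) ≤ C := by exact_mod_cast (show 38 ^ 640 ≤ C by omega)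
      rwa [Nat.cast_pow, Nat.cast_ofNat] at h3

end Cfsg.Agent.H195.FP
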