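import Cfsg.Agent.H195.FP.Large
import Cfsg.Agent.H195.FP.FactsSL
import Cfsg.Agent.H917.FP.Strong

/-!
# `T_SL` from `BR_SL` (helper195, S5717)
-/

set_option autoImplicit false
set_option linter.unusedSectionVars false

namespace Cfsg.Agent.H195.FP

open Module Matrix Cfsg.Agent.H254.BS.PI
open scoped MatrixGroups
open Cfsg.Agent.H917.FP

/-- the natural representation -/
def slHom (ι : Type) [Fintype ι] [DecidableEq ι] (F : Type) [Field F] : SpecialLinearGroup ι F →* Matrix ι ι F where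
  toFun x := x.1
  map_one' := rfl
  map_mul' _ _ := rfl

theorem longOrb_sl {ι : Type} [Fintype ι] [DecidableEq ι] {F : Type} [Field F] [Fintype F] (h2 : 2 ≤ Fintype.card ι) :
    LongOrb (Fintype.card F ^ Fintype.card ι - 1) (slHom ι F) := by
  have key : Nat.card {w : ι → F // w ≠ 0} = Fintype.card F ^ Fintype.card ι - 1 := by
    classical
    rw [Nat.card_eq_fintype_card, Fintype.card_subtype_compl, Fintype.card_subtype_eq, Fintype.card_fun]
  constructor
  · intro v hv
    rw [← key]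
    exact Nat.card_le_card_of_injective
      (fun w : {w : ι → F // w ≠ 0} => (⟨w.1, by obtain ⟨g, hg⟩ := sl_col h2 hv w.2; exact ⟨g, hg⟩⟩ :
        Set.range fun y : SpecialLinearGroup ι F => slHom ι F y *ᵥ v))
      (fun a b hab => Subtype.ext (by simpa using hab))
  · intro v hv
    rw [← key]
    exact Nat.card_le_card_of_injective
      (fun w : {w : ι → F // w ≠ 0} => (⟨w.1, by obtain ⟨g, hg⟩ := sl_row h2 hv w.2; exact ⟨g, hg⟩⟩ :
        Set.range fun y : SpecialLinearGroup ι F => v ᵥ* slHom ι F y))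
      (fun a b hab => Subtype.ext (by simpa using hab))

/-- **`T_SL`** -/
theorem t_sl (hBR : BR_SL) : T_SL := by
  obtain ⟨C1, hC1, hL⟩ := large_sl
  obtain ⟨N0, hN0, hA⟩ := strong_all 10 C1 hC1
  obtain ⟨C2, hC2, hB⟩ := hBR N0
  obtain ⟨C, hC, hS⟩ := hA C2 hC2
  refine ⟨C, hC, fun F _ _ n hn h4 => ?_⟩
  refine hS F (Fin n) SL(n, F) (slHom (Fin n) F) (fun a b h => Subtype.ext h) ?_ ?_ ?_ ?_ ?_
  · intro x hx Ω _ _ hΩ
    exact hL F (Fin n) x hx Ω hΩ
  · intro x hx h0
    exact hx (central_of_supp x h0)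
  · intro N hN hc
    have := hN
    exact (sl_normal (by rwa [Fintype.card_fin]) (commutator_sl (by rwa [Fintype.card_fin])
      (by rwa [Fintype.card_fin])) N).resolve_left hc
  · intro hn0
    rw [Fintype.card_fin] at hn0 ⊢
    have h2 : 2 ≤ Fintype.card F := Fintype.one_lt_card
    have h3 : 4 ≤ Fintype.card F ^ n := by
      calc 4 = 2 ^ 2 := by norm_num
        _ ≤ Fintype.card F ^ 2 := Nat.pow_le_pow_left h2 2
        _ ≤ _ := Nat.pow_le_pow_right (by omega) hn
    refine ⟨Fintype.card F ^ n - 1, by omega, ?_, ?_⟩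
    · have h5 := longOrb_sl (ι := Fin n) (F := F) (by rwa [Fintype.card_fin])
      rwa [Fintype.card_fin] at h5
    · obtain ⟨k, hk⟩ : ∃ k, Fintype.card F ^ n = k + 1 := ⟨Fintype.card F ^ n - 1, by omega⟩
      rw [hk, Nat.add_sub_cancel]
      have hk3 : 3 ≤ k := by omega
      calc k + 1 ≤ k * k := by nlinarith
        _ = k ^ 2 := by ring
        _ ≤ k ^ 4 := Nat.pow_le_pow_right (by omega) (by norm_num)
  · intro hn0
    rw [Fintype.card_fin] at hn0
    exact hB F n hn hn0 h4

end Cfsg.Agent.H195.FP
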