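import Cfsg.Agent.H195.FP.TSL
import Cfsg.Agent.H503.FP.BrSL

/-!
# `T_SL` (helper195, helper503, helper917, helper920; S5717)
-/

set_option autoImplicit false

namespace Cfsg.Agent.H195.FP

theorem T_SL : Cfsg.Agent.H254.BS.PI.T_SL := t_sl Cfsg.Agent.H503.FP.br_sl

end Cfsg.Agent.H195.FP
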