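import Cfsg.Agent.H917.FP.Hom
import Cfsg.Agent.H195.FP.Lin

/-!
# The double commutator for S5717 (helper195)

* `two_comm` : if the conjugates by `x` of `φ (ja a)` commute with `φ S`, then
  `fpr {x} ^ 4 ≤ δ + 1 / |B| + 3 / |A|`, where `δ` bounds the fixed point ratios of `φ [(ja a)⁻¹, jb b]`.
* `far_of_rank` : `Far` from the ranks of `A - μ`.
-/

set_option autoImplicit false
set_option linter.unusedSectionVars false

namespace Cfsg.Agent.H195.FP

open Module Cfsg.Agent.H920.FP Cfsg.Agent.H917.FP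

section comm

variable {G S : Type*} [Group G] [Group S] (Ω : Type*) [MulAction G Ω] [Finite Ω]
  {A B : Type*} [Group A] [Finite A] [Group B] [Finite B]

/-- **The double commutator.** -/
theorem two_comm (ja : A →* S) (jb : B →* S) (φ : S →* G) (x : G)
    (hx : ∀ a : A, ∀ y : S, Commute (x * φ (ja a) * x⁻¹) (φ y)) {δ : ℝ} (hδ : 0 ≤ δ)
    (h : ∀ a : A, a ≠ 1 → ∀ b : B, b ≠ 1 → fpr Ω {φ ((ja a)⁻¹ * jb b * ja a * (jb b)⁻¹)} ≤ δ) :
    fpr Ω {x} ^ 4 ≤ δ + 1 / Nat.card B + 3 / Nat.card A := by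
  have hA : (0 : ℝ) < Nat.card A := by exact_mod_cast Nat.card_pos
  have hA1 : (1 : ℝ) ≤ Nat.card A := by exact_mod_cast Nat.card_pos
  have hB : (0 : ℝ) < Nat.card B := by exact_mod_cast Nat.card_pos
  have h1 : ∀ a : A, a ≠ 1 → fpr Ω {x * (φ (ja a) * x⁻¹ * (φ (ja a))⁻¹)} ^ 2 ≤ δ + 1 / Nat.card B := by
    intro a ha
    have h2 := cs_comm_hom Ω (φ.comp jb) (x * (φ (ja a) * x⁻¹ * (φ (ja a))⁻¹)) ({1} : Set B) δ hδ (fun b hb => by
      refine le_trans (le_of_eq ?_) (h a ha b hb)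
      congr 2
      have c1 := hx a (jb b)
      have c2 := hx a (ja a)
      have c3 := hx a ((ja a)⁻¹ * jb b * ja a)
      rw [MonoidHom.comp_apply]
      set y := φ (jb b) with hy
      set z := φ (ja a) with hz
      have e1 : x * (z * x⁻¹ * z⁻¹) = (x * z * x⁻¹) * z⁻¹ := by group
      rw [e1]
      have e2 : φ ((ja a)⁻¹ * jb b * ja a * (jb b)⁻¹) = z⁻¹ * y * z * y⁻¹ := by
        simp only [map_mul, map_inv, ← hy, ← hz]
      have e3 : φ ((ja a)⁻¹ * jb b * ja a) = z⁻¹ * y * z := by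
        simp only [map_mul, map_inv, ← hy, ← hz]
      rw [e3] at c3
      set w := x * z * x⁻¹ with hw
      rw [e2]
      have e4 : w * z⁻¹ * (y * (w * z⁻¹)⁻¹ * y⁻¹) = (w * (z⁻¹ * y * z)) * w⁻¹ * y⁻¹ := by group
      rw [e4, c3.eq, mul_assoc (z⁻¹ * y * z), mul_inv_cancel, mul_one])
    simpa using h2
  set δ' := δ + 1 / (Nat.card B : ℝ) with hδ'
  have hδ'0 : 0 ≤ δ' := by positivity
  have hx0 := fpr_nonneg Ω ({x} : Set G)
  have hx1 := fpr_le_one Ω ({x} : Set G)
  have h3 := cs_comm_hom Ω (φ.comp ja) x ({1} : Set A) (√δ') (Real.sqrt_nonneg _) (fun a ha => by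
    refine Real.le_sqrt_of_sq_le ?_
    exact h1 a ha)
  have h4 : (Nat.card ({1} : Set A) : ℝ) = 1 := by simp
  rw [h4] at h3
  have h3A : (0 : ℝ) ≤ 3 / Nat.card A := by positivity
  by_cases hle : δ' ≤ 1
  · have hs : √δ' ≤ 1 := by
      rw [← Real.sqrt_one]
      exact Real.sqrt_le_sqrt hle
    have hs0 := Real.sqrt_nonneg δ'
    have hss : √δ' ^ 2 = δ' := Real.sq_sqrt hδ'0
    have hinv : 1 / (Nat.card A : ℝ) ≤ 1 := by
      rw [div_le_one hA]
      exact hA1
    have hinv0 : 0 ≤ 1 / (Nat.card A : ℝ) := by positivity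
    calc fpr Ω {x} ^ 4 = (fpr Ω {x} ^ 2) ^ 2 := by ring
      _ ≤ (√δ' + 1 / Nat.card A) ^ 2 := pow_le_pow_left₀ (sq_nonneg _) h3 2
      _ = √δ' ^ 2 + (2 * √δ' + 1 / Nat.card A) * (1 / Nat.card A) := by ring
      _ = δ' + (2 * √δ' + 1 / Nat.card A) * (1 / Nat.card A) := by rw [hss]
      _ ≤ δ' + 3 * (1 / Nat.card A) := by nlinarith
      _ = δ' + 3 / Nat.card A := by ring
  · push Not at hle
    have : fpr Ω {x} ^ 4 ≤ 1 := pow_le_one₀ hx0 hx1
    linarith

end comm

section far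

open Matrix

variable {F : Type*} [Field F] [Finite F] {ι : Type*} [Fintype ι] [DecidableEq ι]

/-- `Far` from the ranks -/
theorem far_of_rank {A : Matrix ι ι F} {s : ℕ} (hs : s ≤ Fintype.card ι)
    (h : ∀ μ : F, s ≤ (A - Matrix.scalar ι μ).rank) : Far (Matrix.toLin' A) s := by
  have hfin : Module.Finite F (ι → F) := inferInstance
  have hV : Nat.card (ι → F) = Nat.card F ^ Fintype.card ι := by
    rw [Module.natCard_eq_pow_finrank (K := F), Module.finrank_fintype_fun_eq_card]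
  have hF : 1 ≤ Nat.card F := Nat.card_pos
  intro a b hab
  by_cases hb : b = 0
  · subst hb
    have ha : a ≠ 0 := by simpa using hab
    have h1 : Nat.card {u : ι → F // a • u + (0 : F) • Matrix.toLin' A u = 0} = 1 := by
      rw [Nat.card_eq_one_iff_unique]
      refine ⟨⟨fun u v => Subtype.ext ?_⟩, ⟨⟨0, by simp⟩⟩⟩
      have hu := u.2
      have hv := v.2
      rw [zero_smul, add_zero, smul_eq_zero] at hu hv
      rw [hu.resolve_left ha, hv.resolve_left ha]
    rw [h1, one_mul, hV]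
    exact Nat.pow_le_pow_right hF hs
  · have h1 : Nat.card {u : ι → F // a • u + b • Matrix.toLin' A u = 0} =
        Nat.card (LinearMap.ker (Matrix.toLin' (A - Matrix.scalar ι (-(b⁻¹ * a))))) := by
      refine Nat.card_congr (Equiv.subtypeEquivRight fun u => ?_)
      rw [LinearMap.mem_ker, map_sub, LinearMap.sub_apply]
      have h2 : Matrix.toLin' (Matrix.scalar ι (-(b⁻¹ * a))) u = (-(b⁻¹ * a)) • u := by
        rw [Matrix.toLin'_apply, Matrix.scalar_apply, ← Matrix.smul_one_eq_diagonal, Matrix.smul_mulVec,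
          Matrix.one_mulVec]
      rw [h2, neg_smul, sub_neg_eq_add]
      constructor
      · intro h3
        have h4 := congrArg (fun z => b⁻¹ • z) h3
        simp only [smul_add, smul_smul, inv_mul_cancel₀ hb, one_smul, smul_zero] at h4
        rw [add_comm]
        exact h4
      · intro h3
        have h4 := congrArg (fun z => b • z) h3
        simp only [smul_add, smul_smul, smul_zero, ← mul_assoc, mul_inv_cancel₀ hb, one_mul] at h4
        rw [add_comm]
        exact h4
    have h5 := LinearMap.finrank_range_add_finrank_ker (Matrix.toLin' (A - Matrix.scalar ι (-(b⁻¹ * a))))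
    have h6 := h (-(b⁻¹ * a))
    rw [Module.finrank_fintype_fun_eq_card] at h5
    have h7 : finrank F (LinearMap.range (Matrix.toLin' (A - Matrix.scalar ι (-(b⁻¹ * a))))) =
        (A - Matrix.scalar ι (-(b⁻¹ * a))).rank := by
      rw [Matrix.rank]
      rfl
    rw [h7] at h5
    rw [h1, Module.natCard_eq_pow_finrank (K := F) (V := LinearMap.ker (Matrix.toLin' (A - Matrix.scalar ι (-(b⁻¹ * a))))),
      ← pow_add, hV]
    exact Nat.pow_le_pow_right hF (by omega)

end far

end Cfsg.Agent.H195.FP
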